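-- Team project JR (S3206, helper35), package [S8] (helper10):
-- the Sylow 2-subgroups of `G` are elementary abelian of order 8.
import Mathlib
import Cfsg.Agent.Lib.Helper35.JR.Defs

set_option autoImplicit false

namespace Cfsg.Agent.Lib.Helper10.JR

open Cfsg.Agent.Lib.Helper35.JR

universe u

/-- decomposition of the elements of an internal direct product, and its order -/
theorem idp_decomp {G : Type u} [Group G] {A B C : Subgroup G}
    (h : Cfsg.IsInternalDirectProduct A B C) :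
    (∀ x ∈ C, ∃ a ∈ A, ∃ b ∈ B, x = a * b) ∧ Nat.card C = Nat.card A * Nat.card B := by
  obtain ⟨hA, hB, hcomm, hinf, hsup⟩ := h
  have comm : ∀ (m : A) (n : B), Commute (A.subtype m) (B.subtype n) :=
    fun m n => hcomm m.1 m.2 n.1 n.2
  obtain ⟨f, hf⟩ : ∃ f : A × B →* G, f = MonoidHom.noncommCoprod A.subtype B.subtype comm :=
    ⟨_, rfl⟩
  have hrange : f.range = C := by
    rw [hf, MonoidHom.noncommCoprod_range, Subgroup.range_subtype, Subgroup.range_subtype, hsup]
  have hinj : Function.Injective f := by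
    rw [hf, MonoidHom.noncommCoprod_injective]
    refine ⟨Subgroup.subtype_injective A, Subgroup.subtype_injective B, ?_⟩
    rw [Subgroup.range_subtype, Subgroup.range_subtype, disjoint_iff, hinf]
  constructor
  · intro x hx
    rw [← hrange] at hx
    obtain ⟨⟨a, b⟩, rfl⟩ := hx
    refine ⟨a.1, a.2, b.1, b.2, ?_⟩
    rw [hf]
    rfl
  · rw [← hrange]
    exact (Nat.card_congr (MonoidHom.ofInjective hinj).toEquiv).symm.trans (Nat.card_prod _ _)

/-- [S8] -/
theorem pkgS8 : PkgS8.{u} := by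
  intro G _ _ hab t ht E hE hEL
  classical
  have : Fact (Nat.Prime 2) := ⟨Nat.prime_two⟩
  obtain ⟨hdec, hcardC⟩ := idp_decomp hE
  obtain ⟨hA, hB, hcomm, hinf, hsup⟩ := hE
  obtain ⟨-, hT, -⟩ := hEL
  have ht2 : t ^ 2 = 1 := by
    rw [← ht]
    exact pow_orderOf_eq_one t
  -- a Sylow 2-subgroup containing `t`
  have hpz : IsPGroup 2 (Subgroup.zpowers t) :=
    IsPGroup.of_card (n := 1) (by rw [Nat.card_zpowers, ht, pow_one])
  obtain ⟨S₀, hS₀⟩ := hpz.exists_le_sylow
  have htS : t ∈ (S₀ : Subgroup G) := hS₀ (Subgroup.mem_zpowers t)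
  have hSC : (S₀ : Subgroup G) ≤ Subgroup.centralizer ({t} : Set G) := by
    intro x hx
    rw [Subgroup.mem_centralizer_iff]
    intro y hy
    rw [Set.mem_singleton_iff] at hy
    rw [hy]
    exact hab S₀ t htS x hx
  -- the exponent of `S₀`
  have hexp0 : ∀ x ∈ (S₀ : Subgroup G), x ^ 2 = 1 := by
    intro x hx
    obtain ⟨a, ha, b, hb, rfl⟩ := hdec x (hSC hx)
    have hc : Commute a b := hcomm a ha b hb
    have ha2 : a ^ 2 = 1 := by
      obtain ⟨j, rfl⟩ := Subgroup.mem_zpowers_iff.mp ha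
      rw [← zpow_natCast, ← zpow_mul, mul_comm, zpow_mul, zpow_natCast, ht2, one_zpow]
    obtain ⟨m, hm⟩ := S₀.isPGroup' ⟨a * b, hx⟩
    have hm' : (a * b) ^ 2 ^ m = 1 := by
      have h0 := congrArg Subtype.val hm
      simpa using h0
    have hb' : b ^ 2 ^ (m + 1) = 1 := by
      have h1 : (a * b) ^ 2 ^ (m + 1) = 1 := by rw [pow_succ, pow_mul, hm', one_pow]
      rw [hc.mul_pow] at h1
      have h2 : a ^ 2 ^ (m + 1) = 1 := by rw [pow_succ', pow_mul, ha2, one_pow]
      rw [h2, one_mul] at h1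
      exact h1
    have hbE : (⟨b, hb⟩ : E) ^ 2 ^ (m + 1) = 1 := Subtype.ext (by simpa using hb')
    have hpb : IsPGroup 2 (Subgroup.zpowers (⟨b, hb⟩ : E)) := by
      rintro ⟨g, hg⟩
      obtain ⟨j, rfl⟩ := Subgroup.mem_zpowers_iff.mp hg
      refine ⟨m + 1, Subtype.ext ?_⟩
      show ((⟨b, hb⟩ : E) ^ j) ^ 2 ^ (m + 1) = 1
      rw [← zpow_natCast, ← zpow_mul, mul_comm, zpow_mul, zpow_natCast, hbE, one_zpow]
    obtain ⟨T, hTle⟩ := hpb.exists_le_sylow
    have hb2 : (⟨b, hb⟩ : E) ^ 2 = 1 := (hT T).2 _ (hTle (Subgroup.mem_zpowers _))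
    have hb2' : b ^ 2 = 1 := by simpa using congrArg Subtype.val hb2
    rw [hc.mul_pow, ha2, hb2', one_mul]
  -- the order
  have hcardE : (Nat.card E).factorization 2 = 2 := by
    obtain ⟨T⟩ : Nonempty (Sylow 2 E) := inferInstance
    have h1 := (hT T).1
    rw [Sylow.card_eq_multiplicity] at h1
    exact Nat.pow_right_injective (le_refl 2) (h1.trans (by norm_num))
  have hcardC' : Nat.card (Subgroup.centralizer ({t} : Set G)) = 2 * Nat.card E := by
    rw [hcardC, Nat.card_zpowers, ht]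
  have hfC : (Nat.card (Subgroup.centralizer ({t} : Set G))).factorization 2 = 3 := by
    rw [hcardC', Nat.factorization_mul (by norm_num) Nat.card_pos.ne', Finsupp.add_apply,
      Nat.Prime.factorization_self Nat.prime_two, hcardE]
  have hfG : (Nat.card G).factorization 2 = 3 := by
    apply le_antisymm
    · have h1 : Nat.card (S₀ : Subgroup G) ∣ Nat.card (Subgroup.centralizer ({t} : Set G)) :=
        Subgroup.card_dvd_of_le hSC
      rw [Sylow.card_eq_multiplicity] at h1
      have h2 := (Nat.Prime.pow_dvd_iff_le_factorization Nat.prime_two Nat.card_pos.ne').mp h1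
      rw [hfC] at h2
      exact h2
    · have h1 : Nat.card (Subgroup.centralizer ({t} : Set G)) ∣ Nat.card G :=
        Subgroup.card_subgroup_dvd_card _
      have h2 := (Nat.factorization_le_iff_dvd Nat.card_pos.ne' Nat.card_pos.ne').mpr h1 2
      rw [hfC] at h2
      exact h2
  intro S
  refine ⟨by rw [Sylow.card_eq_multiplicity, hfG]; norm_num, ?_⟩
  intro x hx
  obtain ⟨g, rfl⟩ := MulAction.exists_smul_eq G S₀ S
  rw [Sylow.coe_subgroup_smul, Subgroup.mem_smul_pointwise_iff_exists] at hx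
  obtain ⟨s, hs, rfl⟩ := hx
  have h3 := hexp0 s hs
  rw [MulAut.smul_def, MulAut.conj_apply, conj_pow, h3, mul_one, mul_inv_cancel]

end Cfsg.Agent.Lib.Helper10.JR
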